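import Mathlib
import Cfsg.Agent.Lib.MatConj.CentDet

/-!
Invariant subspaces of an endomorphism and their elementary divisors.
-/

set_option autoImplicit false

namespace CfsgLib.Elusive

open Polynomial Module CfsgLib.MatConj

variable {F : Type*} [Field F] {V : Type*} [AddCommGroup V] [Module F V]
  {W : Type*} [AddCommGroup W] [Module F W]

/-- `U` is invariant under `T`. -/
def Inv (T : End F V) (U : Submodule F V) : Prop := ∀ v ∈ U, T v ∈ U

theorem inv_iff_map_le {T : End F V} {U : Submodule F V} : Inv T U ↔ U.map T ≤ U :=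
  ⟨by rintro h _ ⟨v, hv, rfl⟩; exact h v hv, fun h v hv => h ⟨v, hv, rfl⟩⟩

theorem inv_top (T : End F V) : Inv T ⊤ := fun _ _ => trivial

theorem inv_bot (T : End F V) : Inv T ⊥ := fun v hv => by
  rw [(Submodule.mem_bot F).1 hv, map_zero]; exact Submodule.zero_mem _

theorem Inv.sup {T : End F V} {U U' : Submodule F V} (h : Inv T U) (h' : Inv T U') :
    Inv T (U ⊔ U') := by
  rw [inv_iff_map_le, Submodule.map_sup] at *
  exact sup_le_sup h h'

theorem Inv.inf {T : End F V} {U U' : Submodule F V} (h : Inv T U) (h' : Inv T U') :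
    Inv T (U ⊓ U') := fun v hv => ⟨h v hv.1, h' v hv.2⟩

theorem inv_iSup {T : End F V} {ι : Sort*} {U : ι → Submodule F V} (h : ∀ i, Inv T (U i)) :
    Inv T (⨆ i, U i) := by
  rw [inv_iff_map_le, Submodule.map_iSup]
  exact iSup_mono fun i => inv_iff_map_le.1 (h i)

theorem Inv.smul {T : End F V} {U : Submodule F V} (h : Inv T U) (c : F) : Inv (c • T) U :=
  fun v hv => U.smul_mem c (h v hv)

theorem inv_smul_iff {T : End F V} {U : Submodule F V} {c : F} (hc : c ≠ 0) :
    Inv (c • T) U ↔ Inv T U :=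
  ⟨fun h => by simpa [smul_smul, hc] using h.smul c⁻¹, fun h => h.smul c⟩

theorem Inv.pow {T : End F V} {U : Submodule F V} (h : Inv T U) (k : ℕ) : Inv (T ^ k) U := by
  induction k with
  | zero => exact fun v hv => hv
  | succ k ih => exact fun v hv => by rw [pow_succ, End.mul_apply]; exact ih _ (h v hv)

theorem Inv.aeval {T : End F V} {U : Submodule F V} (h : Inv T U) (a : F[X]) :
    Inv (aeval T a) U := by
  intro v hv
  rw [aeval_eq_sum_range, LinearMap.sum_apply]
  exact U.sum_mem fun i _ => U.smul_mem _ (h.pow i v hv)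

theorem inv_ker_aeval (T : End F V) (a : F[X]) : Inv T (LinearMap.ker (aeval T a)) := by
  intro v hv
  rw [LinearMap.mem_ker] at *
  have : aeval T a * T = T * aeval T a := by
    have := (Polynomial.commute_X a).map (aeval T)
    rw [aeval_X] at this
    exact this.eq.symm
  rw [← End.mul_apply, this, End.mul_apply, hv, map_zero]

theorem inv_range_aeval (T : End F V) (a : F[X]) : Inv T (LinearMap.range (aeval T a)) := by
  rintro _ ⟨v, rfl⟩
  have : aeval T a * T = T * aeval T a := by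
    have := (Polynomial.commute_X a).map (aeval T)
    rw [aeval_X] at this
    exact this.eq.symm
  exact ⟨T v, by rw [← End.mul_apply, this, End.mul_apply]⟩

theorem Inv.map {S : End F W} {T : End F V} {U : Submodule F W} (h : Inv S U) (f : W →ₗ[F] V)
    (hf : ∀ w, f (S w) = T (f w)) : Inv T (U.map f) := by
  rintro _ ⟨w, hw, rfl⟩
  exact ⟨S w, h w hw, hf w⟩

theorem Inv.comap {S : End F W} {T : End F V} {U : Submodule F V} (h : Inv T U) (f : W →ₗ[F] V)
    (hf : ∀ w, f (S w) = T (f w)) : Inv S (U.comap f) := fun w hw => by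
  rw [Submodule.mem_comap, hf]; exact h _ hw

theorem Inv.map_eq [FiniteDimensional F V] {T : End F V} (hT : Function.Injective T)
    {U : Submodule F V} (h : Inv T U) : U.map T = U :=
  Submodule.eq_of_le_of_finrank_eq (inv_iff_map_le.1 h)
    (LinearEquiv.finrank_eq (Submodule.equivMapOfInjective T hT U)).symm

theorem aeval_restrict {T : End F V} {U : Submodule F V} (h : Inv T U) (a : F[X]) (v : U) :
    (aeval (T.restrict h) a v : V) = aeval T a v :=
  intertwine_aeval (S := T.restrict h) (T := T) U.subtype (fun _ => rfl) a v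

/-- The total degree of a multiset of elementary divisors. -/
noncomputable def mdeg (s : Multiset (F[X] × ℕ)) : ℕ := (s.map fun x => x.1.natDegree * x.2).sum

theorem mdeg_add (s t : Multiset (F[X] × ℕ)) : mdeg (s + t) = mdeg s + mdeg t := by simp [mdeg]

theorem mdeg_zero : mdeg (0 : Multiset (F[X] × ℕ)) = 0 := by simp [mdeg]

theorem mdeg_cons (x : F[X] × ℕ) (s : Multiset (F[X] × ℕ)) :
    mdeg (x ::ₘ s) = x.1.natDegree * x.2 + mdeg s := by simp [mdeg]

theorem mdeg_singleton (x : F[X] × ℕ) : mdeg {x} = x.1.natDegree * x.2 := by simp [mdeg]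

theorem mdeg_replicate (k : ℕ) (x : F[X] × ℕ) :
    mdeg (Multiset.replicate k x) = k * (x.1.natDegree * x.2) := by simp [mdeg]

theorem mdeg_nsmul (k : ℕ) (s : Multiset (F[X] × ℕ)) : mdeg (k • s) = k * mdeg s := by
  simp [mdeg, Multiset.map_nsmul, Multiset.sum_nsmul]

theorem mdeg_sum {ι : Type*} (S : Finset ι) (s : ι → Multiset (F[X] × ℕ)) :
    mdeg (∑ i ∈ S, s i) = ∑ i ∈ S, mdeg (s i) := by
  classical
  induction S using Finset.induction_on with
  | empty => simp [mdeg_zero]
  | insert a S ha ih => rw [Finset.sum_insert ha, Finset.sum_insert ha, mdeg_add, ih]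

theorem mdeg_mono {s t : Multiset (F[X] × ℕ)} (h : s ≤ t) : mdeg s ≤ mdeg t := by
  obtain ⟨u, rfl⟩ := Multiset.le_iff_exists_add.1 h
  rw [mdeg_add]; omega

theorem valid_of_le {s t : Multiset (F[X] × ℕ)} (ht : Valid t) (h : s ≤ t) : Valid s :=
  fun x hx => ht x (Multiset.mem_of_le h hx)

theorem valid_zero : Valid (0 : Multiset (F[X] × ℕ)) := fun x hx => by simp at hx

theorem eq_zero_of_mdeg_eq_zero {s : Multiset (F[X] × ℕ)} (hs : Valid s) (h : mdeg s = 0) :
    s = 0 := by
  by_contra hne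
  obtain ⟨x, hx⟩ := Multiset.exists_mem_of_ne_zero hne
  obtain ⟨t, rfl⟩ := Multiset.exists_cons_of_mem hx
  obtain ⟨h1, -, h3⟩ := hs x hx
  rw [mdeg_cons] at h
  have := Nat.mul_pos h1.natDegree_pos h3
  omega

variable [FiniteDimensional F V] [FiniteDimensional F W]

theorem finrank_eq_mdeg_ed (T : End F V) : finrank F V = mdeg (ed T) := finrank_eq_sum_ed T

open Classical in
/-- The elementary divisors of `T` on an invariant subspace. -/
noncomputable def edOn (T : End F V) (U : Submodule F V) : Multiset (F[X] × ℕ) :=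
  if h : Inv T U then ed (T.restrict h) else 0

theorem edOn_eq {T : End F V} {U : Submodule F V} (h : Inv T U) :
    edOn T U = ed (T.restrict h) := dif_pos h

theorem edOn_valid (T : End F V) (U : Submodule F V) : Valid (edOn T U) := by
  unfold edOn
  split_ifs
  · exact ed_valid _
  · exact valid_zero

theorem Inv.finrank_eq {T : End F V} {U : Submodule F V} (h : Inv T U) :
    finrank F U = mdeg (edOn T U) := by
  rw [edOn_eq h, finrank_eq_mdeg_ed]

theorem edOn_top (T : End F V) : edOn T ⊤ = ed T := by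
  rw [edOn_eq (inv_top T)]
  exact Sim.ed_eq ⟨Submodule.topEquiv, fun _ => rfl⟩

theorem edOn_bot (T : End F V) : edOn T ⊥ = 0 :=
  eq_zero_of_mdeg_eq_zero (edOn_valid _ _) (by rw [← (inv_bot T).finrank_eq, finrank_bot])

theorem Inv.eq_bot_of_edOn {T : End F V} {U : Submodule F V} (h : Inv T U) (h0 : edOn T U = 0) :
    U = ⊥ := by
  rw [← Submodule.finrank_eq_zero, h.finrank_eq, h0, mdeg_zero]

theorem edOn_map {S : End F W} {T : End F V} {U : Submodule F W} (h : Inv S U) (f : W →ₗ[F] V)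
    (hinj : Function.Injective f) (hf : ∀ w, f (S w) = T (f w)) :
    edOn T (U.map f) = edOn S U := by
  rw [edOn_eq h, edOn_eq (h.map f hf)]
  refine (Sim.ed_eq ⟨Submodule.equivMapOfInjective f hinj U, fun v => Subtype.ext ?_⟩).symm
  exact hf v

theorem edOn_range {S : End F W} {T : End F V} (f : W →ₗ[F] V)
    (hinj : Function.Injective f) (hf : ∀ w, f (S w) = T (f w)) :
    edOn T (LinearMap.range f) = ed S := by
  rw [← Submodule.map_top, edOn_map (inv_top S) f hinj hf, edOn_top]

theorem edOn_map_subtype {T : End F V} {U : Submodule F V} (hU : Inv T U) {A : Submodule F U}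
    (hA : Inv (T.restrict hU) A) : edOn T (A.map U.subtype) = edOn (T.restrict hU) A :=
  edOn_map hA U.subtype U.injective_subtype fun _ => rfl

theorem edOn_comap_subtype {T : End F V} {U A : Submodule F V} (hU : Inv T U) (hA : Inv T A)
    (hle : A ≤ U) : edOn (T.restrict hU) (A.comap U.subtype) = edOn T A := by
  rw [← edOn_map_subtype hU (hA.comap U.subtype fun _ => rfl), Submodule.map_comap_subtype,
    inf_eq_right.2 hle]

theorem edOn_congr {S T : End F V} {U : Submodule F V} (hU : Inv T U) (h : ∀ v ∈ U, S v = T v) :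
    edOn S U = edOn T U := by
  have hS : Inv S U := fun v hv => by rw [h v hv]; exact hU v hv
  rw [edOn_eq hU, edOn_eq hS]
  congr 1
  exact LinearMap.ext fun v => Subtype.ext (h v v.2)

theorem ed_eq_add {T : End F V} {A B : Submodule F V} (hA : Inv T A) (hB : Inv T B)
    (h : IsCompl A B) : ed T = edOn T A + edOn T B := by
  rw [edOn_eq hA, edOn_eq hB]
  exact ed_eq_add_of_isCompl T h hA hB

theorem edOn_sup {T : End F V} {A B : Submodule F V} (hA : Inv T A) (hB : Inv T B)
    (h : Disjoint A B) : edOn T (A ⊔ B) = edOn T A + edOn T B := by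
  have hU := hA.sup hB
  rw [edOn_eq hU, ← edOn_comap_subtype hU hA le_sup_left, ← edOn_comap_subtype hU hB le_sup_right]
  refine ed_eq_add (hA.comap _ fun _ => rfl) (hB.comap _ fun _ => rfl) ⟨?_, ?_⟩
  · rw [disjoint_iff, ← Submodule.comap_inf, disjoint_iff.1 h, Submodule.comap_bot,
      Submodule.ker_subtype]
  · rw [codisjoint_iff]
    apply Submodule.map_injective_of_injective (A ⊔ B).injective_subtype
    rw [Submodule.map_sup, Submodule.map_comap_subtype, Submodule.map_comap_subtype,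
      Submodule.map_top, Submodule.range_subtype, inf_eq_right.2 le_sup_left,
      inf_eq_right.2 le_sup_right]

theorem exists_end_ed_eq {s : Multiset (F[X] × ℕ)} (hs : Valid s) :
    ∃ S : End F (Fin (mdeg s) → F), ed S = s :=
  exists_ed_eq hs (by rw [finrank_fin_fun]; rfl)

theorem exists_split_top {T : End F V} {s t : Multiset (F[X] × ℕ)} (h : ed T = s + t) :
    ∃ A B : Submodule F V, Inv T A ∧ Inv T B ∧ IsCompl A B ∧ edOn T A = s ∧ edOn T B = t := by
  have hv := ed_valid T
  rw [h] at hv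
  obtain ⟨S₁, h₁⟩ := exists_end_ed_eq (valid_of_le hv (Multiset.le_add_right s t))
  obtain ⟨S₂, h₂⟩ := exists_end_ed_eq (valid_of_le hv (Multiset.le_add_left t s))
  have : Sim (S₁.prodMap S₂ : End F _) T := sim_of_ed_eq (by rw [ed_prodMap, h₁, h₂, h])
  obtain ⟨e, he⟩ := this
  have k1 : ∀ w, (e.toLinearMap ∘ₗ LinearMap.inl F _ _) (S₁ w) =
      T ((e.toLinearMap ∘ₗ LinearMap.inl F _ _) w) := fun w => by
    simp only [LinearMap.comp_apply, LinearEquiv.coe_coe, ← he]; simp
  have k2 : ∀ w, (e.toLinearMap ∘ₗ LinearMap.inr F _ _) (S₂ w) =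
      T ((e.toLinearMap ∘ₗ LinearMap.inr F _ _) w) := fun w => by
    simp only [LinearMap.comp_apply, LinearEquiv.coe_coe, ← he]; simp
  refine ⟨LinearMap.range (e.toLinearMap ∘ₗ LinearMap.inl F _ _),
    LinearMap.range (e.toLinearMap ∘ₗ LinearMap.inr F _ _), ?_, ?_, ?_, ?_, ?_⟩
  · rw [← Submodule.map_top]; exact (inv_top S₁).map _ k1
  · rw [← Submodule.map_top]; exact (inv_top S₂).map _ k2
  · rw [LinearMap.range_comp, LinearMap.range_comp]
    exact (Submodule.orderIsoMapComap e).isCompl LinearMap.isCompl_range_inl_inr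
  · rw [edOn_range _ ?_ k1, h₁]
    exact e.injective.comp LinearMap.inl_injective
  · rw [edOn_range _ ?_ k2, h₂]
    exact e.injective.comp LinearMap.inr_injective

theorem exists_split {T : End F V} {U : Submodule F V} (hU : Inv T U)
    {s t : Multiset (F[X] × ℕ)} (h : edOn T U = s + t) :
    ∃ A B : Submodule F V, Inv T A ∧ Inv T B ∧ Disjoint A B ∧ A ⊔ B = U ∧
      edOn T A = s ∧ edOn T B = t := by
  rw [edOn_eq hU] at h
  obtain ⟨A, B, hA, hB, hc, h1, h2⟩ := exists_split_top h
  refine ⟨A.map U.subtype, B.map U.subtype, hA.map _ fun _ => rfl, hB.map _ fun _ => rfl,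
    Submodule.disjoint_map U.injective_subtype hc.disjoint, ?_, ?_, ?_⟩
  · rw [← Submodule.map_sup, hc.sup_eq_top, Submodule.map_top, Submodule.range_subtype]
  · rw [edOn_map_subtype hU hA, h1]
  · rw [edOn_map_subtype hU hB, h2]

theorem exists_split_of_le {T : End F V} {U : Submodule F V} (hU : Inv T U)
    {s : Multiset (F[X] × ℕ)} (h : s ≤ edOn T U) :
    ∃ A B : Submodule F V, Inv T A ∧ Inv T B ∧ Disjoint A B ∧ A ⊔ B = U ∧
      edOn T A = s ∧ edOn T U = s + edOn T B := by
  obtain ⟨t, ht⟩ := Multiset.le_iff_exists_add.1 h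
  obtain ⟨A, B, h1, h2, h3, h4, h5, h6⟩ := exists_split hU ht
  exact ⟨A, B, h1, h2, h3, h4, h5, by rw [h6, ht]⟩

theorem kerDim_restrict {T : End F V} {U : Submodule F V} (h : Inv T U) (a : F[X]) :
    kerDim (T.restrict h) a = finrank F (U ⊓ LinearMap.ker (aeval T a) : Submodule F V) := by
  rw [kerDim, ← Submodule.finrank_map_subtype_eq U]
  suffices H : Submodule.map U.subtype (LinearMap.ker (aeval (T.restrict h) a)) =
      U ⊓ LinearMap.ker (aeval T a) by rw [H]
  ext v
  simp only [Submodule.mem_map, LinearMap.mem_ker, Submodule.mem_inf]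
  constructor
  · rintro ⟨w, hw, rfl⟩
    refine ⟨w.2, ?_⟩
    rw [Submodule.subtype_apply, ← aeval_restrict h, hw, Submodule.coe_zero]
  · rintro ⟨h1, h2⟩
    exact ⟨⟨v, h1⟩, Subtype.ext (by rw [aeval_restrict h]; exact h2), rfl⟩

theorem gcdDeg_edOn {T : End F V} {U : Submodule F V} (h : Inv T U) (a : F[X]) :
    gcdDeg (edOn T U) a = finrank F (U ⊓ LinearMap.ker (aeval T a) : Submodule F V) := by
  rw [edOn_eq h, ← kerDim_eq_gcdDeg, kerDim_restrict]

theorem aeval_eq_zero_on_iff {T : End F V} {U : Submodule F V} (h : Inv T U) (a : F[X]) :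
    (∀ v ∈ U, aeval T a v = 0) ↔ ∀ x ∈ edOn T U, x.1 ^ x.2 ∣ a := by
  rw [edOn_eq h, ← aeval_eq_zero_iff_ed]
  constructor
  · intro H
    ext v
    rw [aeval_restrict h, H v v.2]; rfl
  · intro H v hv
    have := aeval_restrict h a ⟨v, hv⟩
    rw [H] at this
    exact this.symm

theorem dvd_of_mem_edOn {T : End F V} {U : Submodule F V} {a : F[X]}
    (ha : aeval T a = 0) {x : F[X] × ℕ} (hx : x ∈ edOn T U) : x.1 ^ x.2 ∣ a := by
  by_cases h : Inv T U
  · exact (aeval_eq_zero_on_iff h a).1 (fun v _ => by rw [ha]; rfl) x hx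
  · simp [edOn, h] at hx

/-! ### Semisimple endomorphisms -/

theorem exists_compl_top {T : End F V} {a : F[X]} (ha : Squarefree a) (hT : aeval T a = 0)
    {A : Submodule F V} (hA : Inv T A) : ∃ B, Inv T B ∧ IsCompl A B := by
  have := End.isSemisimple_iff.1 (End.isSemisimple_of_squarefree_aeval_eq_zero ha hT) A hA
  obtain ⟨B, hB, h⟩ := this
  exact ⟨B, hB, h⟩

theorem exists_compl {T : End F V} {a : F[X]} (ha : Squarefree a) (hT : aeval T a = 0)
    {A U : Submodule F V} (hA : Inv T A) (hU : Inv T U) (hle : A ≤ U) :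
    ∃ B, Inv T B ∧ Disjoint A B ∧ A ⊔ B = U := by
  obtain ⟨B, hB, h⟩ := exists_compl_top ha hT hA
  refine ⟨B ⊓ U, hB.inf hU, h.disjoint.mono_right inf_le_left, ?_⟩
  rw [← sup_inf_assoc_of_le _ hle, h.sup_eq_top, top_inf_eq]

theorem edOn_mono {T : End F V} {a : F[X]} (ha : Squarefree a) (hT : aeval T a = 0)
    {A U : Submodule F V} (hA : Inv T A) (hU : Inv T U) (hle : A ≤ U) :
    edOn T A ≤ edOn T U := by
  obtain ⟨B, hB, h1, rfl⟩ := exists_compl ha hT hA hU hle
  rw [edOn_sup hA hB h1]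
  exact Multiset.le_add_right _ _

theorem edOn_le_ed {T : End F V} {a : F[X]} (ha : Squarefree a) (hT : aeval T a = 0)
    {A : Submodule F V} (hA : Inv T A) : edOn T A ≤ ed T :=
  edOn_top T ▸ edOn_mono ha hT hA (inv_top T) le_top

theorem exp_eq_one_of_mem_edOn {T : End F V} {a : F[X]} (ha : Squarefree a) (hT : aeval T a = 0)
    {U : Submodule F V} {x : F[X] × ℕ} (hx : x ∈ edOn T U) : x.2 = 1 := by
  obtain ⟨h1, -, h3⟩ := edOn_valid T U x hx
  have h4 := dvd_of_mem_edOn hT hx
  by_contra hne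
  have : x.1 * x.1 ∣ a := (by rw [← pow_two]; exact pow_dvd_pow _ (by omega) : _ ∣ _).trans h4
  exact h1.not_isUnit (ha _ this)

/-! ### Sub-multisets -/

theorem exists_le_map_eq {α β : Type*} (g : α → β) {s : Multiset α} {ν : Multiset β}
    (h : ν ≤ s.map g) : ∃ s' ≤ s, s'.map g = ν := by
  classical
  induction s using Multiset.induction_on generalizing ν with
  | empty => exact ⟨0, le_rfl, by simpa using (le_antisymm h (Multiset.zero_le _)).symm⟩
  | cons a s ih =>
    rw [Multiset.map_cons] at h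
    by_cases ha : g a ∈ ν
    · obtain ⟨ν', rfl⟩ := Multiset.exists_cons_of_mem ha
      obtain ⟨s', h1, h2⟩ := ih ((Multiset.cons_le_cons_iff _).1 h)
      exact ⟨a ::ₘ s', Multiset.cons_le_cons _ h1, by rw [Multiset.map_cons, h2]⟩
    · obtain ⟨s', h1, h2⟩ := ih ((Multiset.le_cons_of_notMem ha).1 h)
      exact ⟨s', h1.trans (Multiset.le_cons_self _ _), h2⟩

theorem exists_add_of_le_add {α : Type*} {ν s t : Multiset α} (h : ν ≤ s + t) :
    ∃ ν₁ ≤ s, ∃ ν₂ ≤ t, ν = ν₁ + ν₂ := by
  classical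
  refine ⟨ν ∩ s, Multiset.inter_le_right, ν - s, ?_, ?_⟩
  · rw [Multiset.sub_le_iff_le_add']; exact h
  · rw [add_comm, Multiset.sub_add_inter]

/-- The block dimensions of a multiset of elementary divisors. -/
noncomputable def dims (s : Multiset (F[X] × ℕ)) : Multiset ℕ :=
  s.map fun x => x.1.natDegree * x.2

theorem sum_dims (s : Multiset (F[X] × ℕ)) : (dims s).sum = mdeg s := rfl

theorem dims_add (s t : Multiset (F[X] × ℕ)) : dims (s + t) = dims s + dims t :=
  Multiset.map_add _ _ _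

theorem dims_mono {s t : Multiset (F[X] × ℕ)} (h : s ≤ t) : dims s ≤ dims t :=
  Multiset.map_le_map h

theorem exists_split_dims {T : End F V} {U : Submodule F V} (hU : Inv T U)
    {ν : Multiset ℕ} (h : ν ≤ dims (edOn T U)) :
    ∃ A B : Submodule F V, Inv T A ∧ Inv T B ∧ Disjoint A B ∧ A ⊔ B = U ∧
      dims (edOn T A) = ν ∧ dims (edOn T U) = ν + dims (edOn T B) := by
  obtain ⟨s, hs, rfl⟩ := exists_le_map_eq _ h
  obtain ⟨A, B, h1, h2, h3, h4, h5, h6⟩ := exists_split_of_le hU hs
  exact ⟨A, B, h1, h2, h3, h4, by rw [h5]; rfl, by rw [h6, dims_add]; rfl⟩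

/-- Invariant complementary pairs of given dimension correspond to sub-multisets. -/
theorem exists_isCompl_iff (T : End F V) (m : ℕ) :
    (∃ A B : Submodule F V, Inv T A ∧ Inv T B ∧ IsCompl A B ∧ finrank F A = m) ↔
      ∃ ν ≤ dims (ed T), ν.sum = m := by
  constructor
  · rintro ⟨A, B, hA, hB, h, rfl⟩
    refine ⟨dims (edOn T A), dims_mono ?_, by rw [sum_dims, hA.finrank_eq]⟩
    rw [ed_eq_add hA hB h]
    exact Multiset.le_add_right _ _
  · rintro ⟨ν, hν, rfl⟩
    rw [← edOn_top] at hν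
    obtain ⟨A, B, h1, h2, h3, h4, h5, -⟩ := exists_split_dims (inv_top T) hν
    exact ⟨A, B, h1, h2, ⟨h3, codisjoint_iff.2 h4⟩, by rw [h1.finrank_eq, ← sum_dims, h5]⟩

theorem exists_inv_iff {T : End F V} {a : F[X]} (ha : Squarefree a) (hT : aeval T a = 0) (m : ℕ) :
    (∃ A : Submodule F V, Inv T A ∧ finrank F A = m) ↔ ∃ ν ≤ dims (ed T), ν.sum = m := by
  rw [← exists_isCompl_iff]
  constructor
  · rintro ⟨A, hA, h⟩
    obtain ⟨B, hB, h'⟩ := exists_compl_top ha hT hA
    exact ⟨A, B, hA, hB, h', h⟩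
  · rintro ⟨A, B, hA, -, -, h⟩
    exact ⟨A, hA, h⟩

theorem exists_flag_of_le (T : End F V) {ν ν' : Multiset ℕ} (h : ν ≤ ν') (h' : ν' ≤ dims (ed T)) :
    ∃ A B : Submodule F V, Inv T A ∧ Inv T B ∧ A ≤ B ∧ finrank F A = ν.sum ∧
      finrank F B = ν'.sum := by
  rw [← edOn_top] at h'
  obtain ⟨B, -, hB, -, -, -, h5, -⟩ := exists_split_dims (inv_top T) h'
  rw [← h5] at h
  obtain ⟨A, A', hA, -, -, h4, h6, -⟩ := exists_split_dims hB h
  exact ⟨A, B, hA, hB, h4 ▸ le_sup_left, by rw [hA.finrank_eq, ← sum_dims, h6],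
    by rw [hB.finrank_eq, ← sum_dims, h5]⟩

theorem det_eq_prod_ed (T : End F V) :
    LinearMap.det T = ((ed T).map fun x => ((-1) ^ x.1.natDegree * x.1.coeff 0) ^ x.2).prod := by
  have h1 : LinearMap.det T = (-1) ^ finrank F V * T.charpoly.coeff 0 :=
    LinearMap.det_eq_sign_charpoly_coeff T
  rw [h1, charpoly_eq_prod_ed, finrank_eq_sum_ed T]
  induction ed T using Multiset.induction_on with
  | empty => simp
  | cons a s ih =>
    simp only [Multiset.map_cons, Multiset.sum_cons, Multiset.prod_cons, mul_coeff_zero]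
    rw [← ih, coeff_zero_eq_eval_zero (a.1 ^ a.2), eval_pow, ← coeff_zero_eq_eval_zero, pow_add,
      mul_pow, pow_mul]
    ring

end CfsgLib.Elusive
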