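import Mathlib
import Cfsg.Agent.Lib.Elusive.Lin

/-!
Endomorphisms whose `r`-th power is a scalar (`r` prime) over a finite field: the irreducible
factors of `X ^ r - z` and the possible elementary divisors.
-/

set_option autoImplicit false

namespace CfsgLib.Elusive

open Polynomial Module CfsgLib.MatConj

section Arith

theorem dvd_pow_sub_one_iff {r q : ℕ} (hq : 0 < q) (k : ℕ) :
    r ∣ q ^ k - 1 ↔ orderOf (q : ZMod r) ∣ k := by
  rw [orderOf_dvd_iff_pow_eq_one, ← Nat.cast_pow, ← Nat.cast_one (R := ZMod r),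
    ZMod.natCast_eq_natCast_iff, (Nat.modEq_iff_dvd' (Nat.one_le_pow _ _ hq)).symm]
  exact ⟨Nat.ModEq.symm, Nat.ModEq.symm⟩

theorem orderOf_eq_one_iff_dvd {r q : ℕ} (hq : 0 < q) : orderOf (q : ZMod r) = 1 ↔ r ∣ q - 1 := by
  rw [← Nat.dvd_one, ← dvd_pow_sub_one_iff hq, pow_one]

theorem orderOf_pos_of_not_dvd {r q : ℕ} [hr : Fact r.Prime] (h : ¬ r ∣ q) :
    0 < orderOf (q : ZMod r) := by
  have : (q : ZMod r) ≠ 0 := by rwa [Ne, ZMod.natCast_eq_zero_iff]
  exact (isOfFinOrder_iff_pow_eq_one.2 ⟨r - 1, by have := hr.out.two_le; omega,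
    ZMod.pow_card_sub_one_eq_one this⟩).orderOf_pos

theorem orderOf_dvd_sub_one {r q : ℕ} [hr : Fact r.Prime] (h : ¬ r ∣ q) :
    orderOf (q : ZMod r) ∣ r - 1 := by
  have : (q : ZMod r) ≠ 0 := by rwa [Ne, ZMod.natCast_eq_zero_iff]
  exact orderOf_dvd_of_pow_eq_one (ZMod.pow_card_sub_one_eq_one this)

theorem dvd_pow_add_one_iff {r q : ℕ} (k : ℕ) : r ∣ q ^ k + 1 ↔ (q : ZMod r) ^ k = -1 := by
  rw [← ZMod.natCast_eq_zero_iff]
  push_cast
  exact add_eq_zero_iff_eq_neg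

theorem exists_le_rep_iff {e a i m : ℕ} :
    (∃ ν ≤ Multiset.replicate e 1 + Multiset.replicate a i, ν.sum = m) ↔
      ∃ e' ≤ e, ∃ a' ≤ a, m = e' + i * a' := by
  constructor
  · rintro ⟨ν, hν, rfl⟩
    obtain ⟨ν₁, h1, ν₂, h2, rfl⟩ := exists_add_of_le_add hν
    obtain ⟨e', he, rfl⟩ := Multiset.le_replicate_iff.1 h1
    obtain ⟨a', ha, rfl⟩ := Multiset.le_replicate_iff.1 h2
    exact ⟨e', he, a', ha, by simp [mul_comm]⟩
  · rintro ⟨e', he, a', ha, rfl⟩
    exact ⟨Multiset.replicate e' 1 + Multiset.replicate a' i,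
      add_le_add ((Multiset.replicate_le_replicate _).2 he)
        ((Multiset.replicate_le_replicate _).2 ha), by simp [mul_comm]⟩

theorem exists_le_rep_of_mod {e a i m : ℕ} (hm : m ≤ e + i * a) (h : m % i ≤ e) :
    ∃ e' ≤ e, ∃ a' ≤ a, m = e' + i * a' := by
  by_cases ha : m / i ≤ a
  · exact ⟨m % i, h, m / i, ha, (Nat.mod_add_div m i).symm⟩
  · have h1 : i * a ≤ m := (Nat.mul_le_mul_left i (by omega)).trans (Nat.mul_div_le m i)
    exact ⟨m - i * a, by omega, a, le_rfl, by omega⟩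

theorem mod_le_of_eq_add {e a i n : ℕ} (h : n = e + i * a) : n % i ≤ e := by
  rw [h, Nat.add_mul_mod_self_left]; exact Nat.mod_le _ _

end Arith

section Field

variable {F : Type*} [Field F] [Fintype F] {p r : ℕ} [hp : Fact p.Prime] [CharP F p]
  [hr : Fact r.Prime]

omit hr in
theorem char_dvd_card : p ∣ Fintype.card F := by
  obtain ⟨k, -, hk⟩ := FiniteField.card F p
  rw [hk]; exact dvd_pow_self p k.ne_zero

theorem not_dvd_card (hrp : r ≠ p) : ¬ r ∣ Fintype.card F := by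
  obtain ⟨k, -, hk⟩ := FiniteField.card F p
  rw [hk]
  exact fun h => hrp ((Nat.prime_dvd_prime_iff_eq hr.out hp.out).1 (hr.out.dvd_of_dvd_pow h))

omit [Fintype F] in
theorem cast_ne_zero (hrp : r ≠ p) : (r : F) ≠ 0 := by
  rw [Ne, CharP.cast_eq_zero_iff F p]
  exact fun h => hrp ((Nat.prime_dvd_prime_iff_eq hp.out hr.out).1 h).symm

theorem ord_pos (hrp : r ≠ p) : 0 < orderOf (Fintype.card F : ZMod r) :=
  orderOf_pos_of_not_dvd (not_dvd_card hrp)

theorem natDegree_eq_ord (hrp : r ≠ p) {f : F[X]} (hf : Irreducible f)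
    (h : f ∣ cyclotomic r F) : f.natDegree = orderOf (Fintype.card F : ZMod r) := by
  obtain ⟨k, -, hk⟩ := FiniteField.card F p
  have hc : p.Coprime r := (Nat.coprime_primes hp.out hr.out).2 hrp.symm
  rw [natDegree_of_dvd_cyclotomic_of_irreducible hk hc h hf, ← orderOf_units, hk]
  simp

omit [Fintype F] in
theorem eq_or_dvd_cyclotomic {f : F[X]} (hf : Irreducible f) (hm : f.Monic)
    (h : f ∣ X ^ r - 1) : f = X - 1 ∨ f ∣ cyclotomic r F := by
  rw [← cyclotomic_prime_mul_X_sub_one] at h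
  rcases hf.prime.dvd_or_dvd h with h | h
  · exact Or.inr h
  · exact Or.inl (eq_of_monic_of_associated hm monic_X_sub_one
      (hf.associated_of_dvd irreducible_X_sub_one h))

omit [Fintype F] in
theorem not_X_sub_one_dvd (hrp : r ≠ p) : ¬ (X - 1 : F[X]) ∣ cyclotomic r F := by
  intro h
  have := dvd_iff_isRoot.1 (show X - C 1 ∣ cyclotomic r F by simpa using h)
  rw [IsRoot, eval_one_cyclotomic_prime] at this
  exact cast_ne_zero hrp this

omit [Fintype F] in
theorem cyclotomic_dvd_sub_one : cyclotomic r F ∣ X ^ r - 1 :=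
  ⟨X - 1, (cyclotomic_prime_mul_X_sub_one F r).symm⟩

omit [Fintype F] in
theorem squarefree_X_pow_sub_C (hrp : r ≠ p) {z : F} (hz : z ≠ 0) :
    Squarefree (X ^ r - C z : F[X]) :=
  (separable_X_pow_sub_C z (cast_ne_zero hrp) hz).squarefree

omit [Fintype F] in
theorem squarefree_sub_one (hrp : r ≠ p) : Squarefree (X ^ r - 1 : F[X]) :=
  squarefree_X_pow_sub_one (cast_ne_zero hrp)

variable (r F) in
open Classical in
/-- The monic irreducible factors of the `r`-th cyclotomic polynomial. -/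
noncomputable def cyc : Finset F[X] :=
  (UniqueFactorizationMonoid.normalizedFactors (cyclotomic r F)).toFinset

omit [Fintype F] hr in
theorem mem_cyc {f : F[X]} : f ∈ cyc F r ↔ Irreducible f ∧ f.Monic ∧ f ∣ cyclotomic r F := by
  classical
  rw [cyc, Multiset.mem_toFinset, Polynomial.mem_normalizedFactors_iff (cyclotomic_ne_zero r F)]

theorem card_cyc (hrp : r ≠ p) : (cyc F r).card = (r - 1) / orderOf (Fintype.card F : ZMod r) := by
  classical
  obtain ⟨k, -, hk⟩ := FiniteField.card F p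
  have hc : p.Coprime r := (Nat.coprime_primes hp.out hr.out).2 hrp.symm
  have := normalizedFactors_cyclotomic_card hk hc
  rw [Nat.totient_prime hr.out, ← orderOf_units] at this
  rw [hk]
  convert this
  · rfl
  · simp

theorem card_cyc_pos (hrp : r ≠ p) : 0 < (cyc F r).card := by
  rw [card_cyc hrp]
  exact Nat.div_pos (Nat.le_of_dvd (by have := hr.out.two_le; omega)
    (orderOf_dvd_sub_one (not_dvd_card hrp))) (ord_pos hrp)

theorem exists_mem_cyc (hrp : r ≠ p) : ∃ f, f ∈ cyc F r := Finset.card_pos.1 (card_cyc_pos hrp)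

theorem natDegree_of_mem_cyc (hrp : r ≠ p) {f : F[X]} (hf : f ∈ cyc F r) :
    f.natDegree = orderOf (Fintype.card F : ZMod r) :=
  natDegree_eq_ord hrp (mem_cyc.1 hf).1 (mem_cyc.1 hf).2.2

omit [Fintype F] in
theorem ne_of_mem_cyc (hrp : r ≠ p) {f : F[X]} (hf : f ∈ cyc F r) : f ≠ X - 1 := by
  rintro rfl
  exact not_X_sub_one_dvd hrp (mem_cyc.1 hf).2.2

omit [Fintype F] in
theorem dvd_of_mem_cyc {f : F[X]} (hf : f ∈ cyc F r) : f ∣ X ^ r - 1 :=
  (mem_cyc.1 hf).2.2.trans cyclotomic_dvd_sub_one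

omit [Fintype F] in
theorem prod_cyc (hrp : r ≠ p) : ∏ f ∈ cyc F r, f = cyclotomic r F := by
  classical
  have hsq : Squarefree (cyclotomic r F) :=
    (squarefree_sub_one hrp).squarefree_of_dvd cyclotomic_dvd_sub_one
  have h1 := (UniqueFactorizationMonoid.squarefree_iff_nodup_normalizedFactors
    (cyclotomic_ne_zero r F)).1 hsq
  have h2 := UniqueFactorizationMonoid.prod_normalizedFactors_eq (cyclotomic_ne_zero r F)
  rw [(cyclotomic.monic r F).normalize_eq_self] at h2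
  rw [← h2, Finset.prod_eq_multiset_prod, Multiset.map_id', cyc]
  congr 1
  convert (Multiset.toFinset_val _).trans h1.dedup

/-- Semisimple elementary divisors: `e` copies of `X - 1` and the members of `t`. -/
noncomputable def ssEd (e : ℕ) (t : Multiset F[X]) : Multiset (F[X] × ℕ) :=
  Multiset.replicate e (X - 1, 1) + t.map fun f => (f, 1)

omit [Fintype F] in
theorem exists_ssEd (hrp : r ≠ p) {s : Multiset (F[X] × ℕ)} (hs : Valid s)
    (h : ∀ x ∈ s, x.1 ^ x.2 ∣ X ^ r - 1) :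
    ∃ e t, (∀ f ∈ t, f ∈ cyc F r) ∧ s = ssEd e t := by
  induction s using Multiset.induction_on with
  | empty => exact ⟨0, 0, by simp, by simp [ssEd]⟩
  | cons x s ih =>
    obtain ⟨e, t, h1, rfl⟩ := ih (valid_of_le hs (Multiset.le_cons_self _ _))
      fun y hy => h y (Multiset.mem_cons_of_mem hy)
    obtain ⟨h2, h3, h4⟩ := hs x (Multiset.mem_cons_self _ _)
    have h5 := h x (Multiset.mem_cons_self _ _)
    have h6 : x.2 = 1 := by
      by_contra hne
      have : x.1 * x.1 ∣ X ^ r - 1 :=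
        (by rw [← pow_two]; exact pow_dvd_pow _ (by omega) : _ ∣ _).trans h5
      exact h2.not_isUnit (squarefree_sub_one hrp _ this)
    obtain ⟨f, k⟩ := x
    dsimp only at h2 h3 h5 h6
    subst h6
    rw [pow_one] at h5
    rcases eq_or_dvd_cyclotomic h2 h3 h5 with rfl | h7
    · exact ⟨e + 1, t, h1, by simp [ssEd, Multiset.replicate_succ]⟩
    · refine ⟨e, f ::ₘ t, ?_, by simp [ssEd]⟩
      intro g hg
      rcases Multiset.mem_cons.1 hg with rfl | hg
      · exact mem_cyc.2 ⟨h2, h3, h7⟩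
      · exact h1 g hg

omit [Fintype F] hr in
theorem valid_ssEd (e : ℕ) {t : Multiset F[X]} (ht : ∀ f ∈ t, f ∈ cyc F r) :
    Valid (ssEd e t) := by
  intro x hx
  rcases Multiset.mem_add.1 hx with hx | hx
  · rw [Multiset.eq_of_mem_replicate hx]
    exact ⟨irreducible_X_sub_one, monic_X_sub_one, one_pos⟩
  · obtain ⟨f, hf, rfl⟩ := Multiset.mem_map.1 hx
    exact ⟨(mem_cyc.1 (ht f hf)).1, (mem_cyc.1 (ht f hf)).2.1, one_pos⟩

omit [Fintype F] in
theorem dvd_of_mem_ssEd (e : ℕ) {t : Multiset F[X]} (ht : ∀ f ∈ t, f ∈ cyc F r) :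
    ∀ x ∈ ssEd e t, x.1 ^ x.2 ∣ X ^ r - 1 := by
  intro x hx
  rcases Multiset.mem_add.1 hx with hx | hx
  · rw [Multiset.eq_of_mem_replicate hx, pow_one, ← cyclotomic_prime_mul_X_sub_one]
    exact Dvd.intro_left _ rfl
  · obtain ⟨f, hf, rfl⟩ := Multiset.mem_map.1 hx
    simpa using dvd_of_mem_cyc (ht f hf)

theorem dims_ssEd (hrp : r ≠ p) (e : ℕ) {t : Multiset F[X]} (ht : ∀ f ∈ t, f ∈ cyc F r) :
    dims (ssEd e t) = Multiset.replicate e 1 +
      Multiset.replicate (Multiset.card t) (orderOf (Fintype.card F : ZMod r)) := by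
  rw [ssEd, dims_add, dims, dims, Multiset.map_replicate, Multiset.map_map]
  congr 1
  · simp [natDegree_X_sub_one]
  · rw [Multiset.eq_replicate]
    refine ⟨by simp, fun b hb => ?_⟩
    obtain ⟨f, hf, rfl⟩ := Multiset.mem_map.1 hb
    simpa using natDegree_of_mem_cyc hrp (ht f hf)

theorem mdeg_ssEd (hrp : r ≠ p) (e : ℕ) {t : Multiset F[X]} (ht : ∀ f ∈ t, f ∈ cyc F r) :
    mdeg (ssEd e t) = e + orderOf (Fintype.card F : ZMod r) * Multiset.card t := by
  rw [← sum_dims, dims_ssEd hrp e ht]; simp [mul_comm]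

omit [Fintype F] hr hp [CharP F p] in
theorem ssEd_add (e e' : ℕ) (t t' : Multiset F[X]) :
    ssEd (e + e') (t + t') = ssEd e t + ssEd e' t' := by
  simp only [ssEd, Multiset.replicate_add, Multiset.map_add]; abel

omit [Fintype F] in
theorem ssEd_le_iff (hrp : r ≠ p) {e e' : ℕ} {t t' : Multiset F[X]} (ht : ∀ f ∈ t, f ∈ cyc F r)
    (ht' : ∀ f ∈ t', f ∈ cyc F r) : ssEd e t ≤ ssEd e' t' ↔ e ≤ e' ∧ t ≤ t' := by
  classical
  constructor
  · intro h
    rw [Multiset.le_iff_count] at h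
    have hinj : Function.Injective fun f : F[X] => (f, 1) := fun _ _ h => congrArg Prod.fst h
    constructor
    · have := h (X - 1, 1)
      simp only [ssEd, Multiset.count_add, Multiset.count_replicate_self,
        Multiset.count_map_eq_count' _ _ hinj] at this
      rwa [Multiset.count_eq_zero_of_notMem fun h => ne_of_mem_cyc hrp (ht _ h) rfl,
        Multiset.count_eq_zero_of_notMem fun h => ne_of_mem_cyc hrp (ht' _ h) rfl] at this
    · rw [Multiset.le_iff_count]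
      intro f
      by_cases hf : f ∈ t
      · have := h (f, 1)
        have hne : ((X - 1 : F[X]), 1) ≠ (f, 1) := fun h =>
          ne_of_mem_cyc hrp (ht f hf) (congrArg Prod.fst h).symm
        simpa only [ssEd, Multiset.count_add, Multiset.count_replicate, if_neg hne,
          Multiset.count_map_eq_count' _ _ hinj, zero_add] using this
      · rw [Multiset.count_eq_zero_of_notMem hf]; exact Nat.zero_le _
  · rintro ⟨h1, h2⟩
    exact add_le_add ((Multiset.replicate_le_replicate _).2 h1) (Multiset.map_le_map h2)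

omit [Fintype F] in
theorem ssEd_inj (hrp : r ≠ p) {e e' : ℕ} {t t' : Multiset F[X]} (ht : ∀ f ∈ t, f ∈ cyc F r)
    (ht' : ∀ f ∈ t', f ∈ cyc F r) (h : ssEd e t = ssEd e' t') : e = e' ∧ t = t' := by
  obtain ⟨h1, h2⟩ := (ssEd_le_iff hrp ht ht').1 h.le
  obtain ⟨h3, h4⟩ := (ssEd_le_iff hrp ht' ht).1 h.ge
  exact ⟨le_antisymm h1 h3, le_antisymm h2 h4⟩

/-- Unipotent elementary divisors with block sizes `μ`. -/
noncomputable def unEd (μ : Multiset ℕ) : Multiset (F[X] × ℕ) := μ.map fun k => (X - 1, k)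

omit [Fintype F] in
theorem X_pow_char_sub_one : (X ^ p - 1 : F[X]) = (X - 1) ^ p := by
  rw [sub_pow_char, one_pow]

omit [Fintype F] in
theorem exists_unEd_of_dvd {s : Multiset (F[X] × ℕ)} (hs : Valid s) {k : ℕ}
    (h : ∀ x ∈ s, x.1 ^ x.2 ∣ (X - 1) ^ k) :
    ∃ μ : Multiset ℕ, (∀ a ∈ μ, 0 < a ∧ a ≤ k) ∧ s = unEd μ := by
  have key : ∀ x ∈ s, x.1 = X - 1 ∧ x.2 ≤ k := by
    intro x hx
    obtain ⟨h1, h2, h3⟩ := hs x hx
    have h4 := h x hx
    have h5 : x.1 = X - 1 := eq_of_monic_of_associated h2 monic_X_sub_one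
      (h1.associated_of_dvd irreducible_X_sub_one
        (h1.prime.dvd_of_dvd_pow ((dvd_pow_self _ h3.ne').trans h4)))
    rw [h5] at h4
    exact ⟨h5, (pow_dvd_pow_iff monic_X_sub_one.ne_zero irreducible_X_sub_one.not_isUnit).1 h4⟩
  refine ⟨s.map Prod.snd, fun a ha => ?_, ?_⟩
  · obtain ⟨x, hx, rfl⟩ := Multiset.mem_map.1 ha
    exact ⟨(hs x hx).2.2, (key x hx).2⟩
  · rw [unEd, Multiset.map_map]
    conv_lhs => rw [← Multiset.map_id s]
    exact Multiset.map_congr rfl fun x hx => Prod.ext (key x hx).1 rfl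

omit [Fintype F] in
theorem exists_unEd {s : Multiset (F[X] × ℕ)} (hs : Valid s)
    (h : ∀ x ∈ s, x.1 ^ x.2 ∣ X ^ p - 1) :
    ∃ μ : Multiset ℕ, (∀ a ∈ μ, 0 < a ∧ a ≤ p) ∧ s = unEd μ :=
  exists_unEd_of_dvd hs (by rwa [← X_pow_char_sub_one])

omit [Fintype F] in
theorem dims_unEd (μ : Multiset ℕ) : dims (unEd μ : Multiset (F[X] × ℕ)) = μ := by
  simp [dims, unEd, natDegree_X_sub_one]

omit [Fintype F] in
theorem mdeg_unEd (μ : Multiset ℕ) : mdeg (unEd μ : Multiset (F[X] × ℕ)) = μ.sum := by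
  rw [← sum_dims, dims_unEd]

omit [Fintype F] in
theorem unEd_add (μ ν : Multiset ℕ) :
    (unEd (μ + ν) : Multiset (F[X] × ℕ)) = unEd μ + unEd ν := Multiset.map_add _ _ _

omit [Fintype F] in
theorem unEd_injective : Function.Injective (unEd : Multiset ℕ → Multiset (F[X] × ℕ)) :=
  fun μ ν h => by rw [← dims_unEd (F := F) μ, h, dims_unEd]

omit [Fintype F] in
theorem valid_unEd {μ : Multiset ℕ} (h : ∀ a ∈ μ, 0 < a) :
    Valid (unEd μ : Multiset (F[X] × ℕ)) := by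
  intro x hx
  obtain ⟨a, ha, rfl⟩ := Multiset.mem_map.1 hx
  exact ⟨irreducible_X_sub_one, monic_X_sub_one, h a ha⟩

omit [Fintype F] in
theorem dvd_of_mem_unEd {μ : Multiset ℕ} (h : ∀ a ∈ μ, a ≤ p) :
    ∀ x ∈ (unEd μ : Multiset (F[X] × ℕ)), x.1 ^ x.2 ∣ X ^ p - 1 := by
  intro x hx
  obtain ⟨a, ha, rfl⟩ := Multiset.mem_map.1 hx
  rw [X_pow_char_sub_one]
  exact pow_dvd_pow _ (h a ha)

theorem exists_pow_eq_of_not_dvd (h : ¬ r ∣ Fintype.card F - 1) (z : F) : ∃ b : F, b ^ r = z := by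
  classical
  by_cases hz : z = 0
  · exact ⟨0, by rw [hz, zero_pow hr.out.ne_zero]⟩
  have hc : (Nat.card Fˣ).Coprime r := by
    rw [Nat.card_eq_fintype_card, Fintype.card_units]
    exact ((Nat.Prime.coprime_iff_not_dvd hr.out).2 h).symm
  obtain ⟨b, hb⟩ := (powCoprime hc).surjective (Units.mk0 z hz)
  exact ⟨b, by simpa using congrArg Units.val hb⟩

theorem eq_one_of_pow_eq_one (h : ¬ r ∣ Fintype.card F - 1) {d : F} (hd : d ^ r = 1) : d = 1 := by
  have hd0 : d ≠ 0 := by rintro rfl; simp [hr.out.ne_zero] at hd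
  have h1 := orderOf_dvd_of_pow_eq_one hd
  have h2 := orderOf_dvd_of_pow_eq_one (FiniteField.pow_card_sub_one_eq_one d hd0)
  rcases (Nat.dvd_prime hr.out).1 h1 with h3 | h3
  · exact orderOf_eq_one_iff.1 h3
  · exact absurd (h3 ▸ h2) h

omit hr in
theorem char_not_dvd_sub_one : ¬ p ∣ Fintype.card F - 1 := by
  intro h
  have h1 := Nat.dvd_sub (char_dvd_card (F := F) (p := p)) h
  rw [Nat.sub_sub_self Fintype.card_pos] at h1
  exact hp.out.one_lt.ne' (Nat.dvd_one.1 h1)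

omit [Fintype F] in
theorem eq_replicate_of_irreducible {s : Multiset (F[X] × ℕ)} (hs : Valid s) {f : F[X]}
    (hf : Irreducible f) (hm : f.Monic) (h : ∀ x ∈ s, x.1 ^ x.2 ∣ f) :
    s = Multiset.replicate (Multiset.card s) (f, 1) := by
  rw [Multiset.eq_replicate]
  refine ⟨rfl, fun x hx => ?_⟩
  obtain ⟨h1, h2, h3⟩ := hs x hx
  have h4 := h x hx
  have h5 : x.1 = f := eq_of_monic_of_associated h2 hm
    (h1.associated_of_dvd hf ((dvd_pow_self _ h3.ne').trans h4))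
  refine Prod.ext h5 ?_
  rw [h5] at h4
  nth_rewrite 2 [← pow_one f] at h4
  have := (pow_dvd_pow_iff hf.ne_zero hf.not_isUnit).1 h4
  dsimp only; omega

variable {V : Type*} [AddCommGroup V] [Module F V]

omit [Fintype F] hr in
theorem aeval_X_pow_sub_C_eq_zero {T : End F V} {z : F} :
    aeval T (X ^ r - C z) = 0 ↔ T ^ r = z • 1 := by
  rw [map_sub, map_pow, aeval_X, aeval_C, sub_eq_zero, Algebra.algebraMap_eq_smul_one]

omit [Fintype F] hr in
theorem aeval_X_pow_sub_one_eq_zero {T : End F V} :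
    aeval T (X ^ r - 1 : F[X]) = 0 ↔ T ^ r = 1 := by
  rw [map_sub, map_pow, aeval_X, map_one, sub_eq_zero]

variable [FiniteDimensional F V]

omit [Fintype F] hr in
theorem pow_eq_smul_iff_ed {T : End F V} {z : F} :
    T ^ r = z • 1 ↔ ∀ x ∈ ed T, x.1 ^ x.2 ∣ X ^ r - C z := by
  rw [← aeval_X_pow_sub_C_eq_zero, aeval_eq_zero_iff_ed]

omit [Fintype F] hr in
theorem pow_eq_one_iff_ed {T : End F V} :
    T ^ r = 1 ↔ ∀ x ∈ ed T, x.1 ^ x.2 ∣ X ^ r - 1 := by
  rw [← aeval_X_pow_sub_one_eq_zero, aeval_eq_zero_iff_ed]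

omit [Fintype F] in
theorem mem_ed_of_eq_smul {T : End F V} {c : F} (h : T = c • 1) {x : F[X] × ℕ} (hx : x ∈ ed T) :
    x = (X - C c, 1) := by
  have h1 : T ^ 1 = c • 1 := by rwa [pow_one]
  have h2 := pow_eq_smul_iff_ed.1 h1
  rw [pow_one] at h2
  rw [eq_replicate_of_irreducible (ed_valid T) (irreducible_X_sub_C c) (monic_X_sub_C c) h2] at hx
  exact Multiset.eq_of_mem_replicate hx

omit [Fintype F] in
theorem ne_smul_of_mem_ed {T : End F V} {x : F[X] × ℕ} (hx : x ∈ ed T)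
    (h : x.1.natDegree * x.2 ≠ 1) (c : F) : T ≠ c • 1 := fun hc => by
  rw [mem_ed_of_eq_smul hc hx] at h
  simp at h

omit [Fintype F] in
theorem ne_smul_of_mem_ed_two {T : End F V} {x y : F[X] × ℕ} (hx : x ∈ ed T) (hy : y ∈ ed T)
    (h : x ≠ y) (c : F) : T ≠ c • 1 := fun hc =>
  h ((mem_ed_of_eq_smul hc hx).trans (mem_ed_of_eq_smul hc hy).symm)

omit [Fintype F] in
theorem edOn_ssEd (hrp : r ≠ p) {T : End F V} (hT : T ^ r = 1) (U : Submodule F V) :
    ∃ e t, (∀ f ∈ t, f ∈ cyc F r) ∧ edOn T U = ssEd e t :=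
  exists_ssEd hrp (edOn_valid T U) fun _ hx =>
    dvd_of_mem_edOn (aeval_X_pow_sub_one_eq_zero.2 hT) hx

omit [Fintype F] in
theorem ed_ssEd (hrp : r ≠ p) {T : End F V} (hT : T ^ r = 1) :
    ∃ e t, (∀ f ∈ t, f ∈ cyc F r) ∧ ed T = ssEd e t := edOn_top T ▸ edOn_ssEd hrp hT ⊤

omit [Fintype F] in
theorem edOn_unEd {T : End F V} (hT : T ^ p = 1) (U : Submodule F V) :
    ∃ μ : Multiset ℕ, (∀ a ∈ μ, 0 < a ∧ a ≤ p) ∧ edOn T U = unEd μ :=
  exists_unEd (edOn_valid T U) fun _ hx =>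
    dvd_of_mem_edOn (aeval_X_pow_sub_one_eq_zero.2 hT) hx

omit [Fintype F] in
theorem ed_unEd {T : End F V} (hT : T ^ p = 1) :
    ∃ μ : Multiset ℕ, (∀ a ∈ μ, 0 < a ∧ a ≤ p) ∧ ed T = unEd μ := edOn_top T ▸ edOn_unEd hT ⊤

omit [Fintype F] in
theorem edOn_nonsplit {T : End F V} {z : F} (hT : T ^ r = z • 1) (hz : ∀ b : F, b ^ r ≠ z)
    (U : Submodule F V) : ∃ k, edOn T U = Multiset.replicate k (X ^ r - C z, 1) :=
  ⟨_, eq_replicate_of_irreducible (edOn_valid T U) (X_pow_sub_C_irreducible_of_prime hr.out hz)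
    (monic_X_pow_sub_C z hr.out.ne_zero) fun _ hx =>
    dvd_of_mem_edOn (aeval_X_pow_sub_C_eq_zero.2 hT) hx⟩

omit [Fintype F] in
theorem dvd_finrank_of_nonsplit {T : End F V} {z : F} (hT : T ^ r = z • 1)
    (hz : ∀ b : F, b ^ r ≠ z) {U : Submodule F V} (hU : Inv T U) : r ∣ finrank F U := by
  obtain ⟨k, hk⟩ := edOn_nonsplit hT hz U
  rw [hU.finrank_eq, hk, mdeg_replicate, natDegree_X_pow_sub_C, mul_one]
  exact Dvd.intro_left _ rfl

omit [Fintype F] [FiniteDimensional F V] in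
theorem smul_pow_eq_one {T : End F V} {b : F} (hb : b ≠ 0) (hT : T ^ r = (b ^ r) • 1) :
    (b⁻¹ • T) ^ r = 1 := by
  rw [_root_.smul_pow, hT, smul_smul, ← mul_pow, inv_mul_cancel₀ hb, one_pow, one_smul]

omit [Fintype F] in
theorem det_of_ed_nonsplit {T : End F V} {z : F} {k : ℕ}
    (h : ed T = Multiset.replicate k (X ^ r - C z, 1)) :
    LinearMap.det T = ((-1) ^ (r + 1) * z) ^ k := by
  rw [det_eq_prod_ed, h]
  simp [hr.out.ne_zero.symm, coeff_X_pow, pow_succ]

theorem det_eq_one_of_pow_eq_one (h : ¬ r ∣ Fintype.card F - 1) {T : End F V} (hT : T ^ r = 1) :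
    LinearMap.det T = 1 :=
  eq_one_of_pow_eq_one h (by rw [← map_pow, hT, map_one])

end Field

end CfsgLib.Elusive
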