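import Mathlib
import Cfsg.Agent.Lib.Elusive.Cyclo
import Cfsg.Agent.Lib.Elusive.Count

/-!
Elements of prime order of `PSL_n(q)`: reduction of statements about all of them to
combinatorial statements about elementary divisors.
-/

set_option autoImplicit false

namespace CfsgLib.Elusive

open Polynomial Module CfsgLib.MatConj CfsgLib.Forms

section Powers

variable {F : Type*} [Field F] [Fintype F] {r : ℕ} [hr : Fact r.Prime]

theorem pow_val_dvd_of_not_pow {w : F} (hw : ∀ b : F, b ^ r ≠ w) {k : ℕ} (hk : w ^ k = 1) :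
    r ^ padicValNat r (Fintype.card F - 1) ∣ k := by
  classical
  have hw0 : w ≠ 0 := fun h => hw 0 (by rw [h, zero_pow hr.out.ne_zero])
  obtain ⟨g, hg⟩ := IsCyclic.exists_monoid_generator (α := Fˣ)
  obtain ⟨j, hj⟩ := hg (Units.mk0 w hw0)
  dsimp only at hj
  have ho : orderOf g = Fintype.card F - 1 := by
    rw [orderOf_eq_card_of_forall_mem_powers hg, Nat.card_eq_fintype_card, Fintype.card_units]
  have hrj : ¬ r ∣ j := by
    rintro ⟨l, rfl⟩
    apply hw (g ^ l : Fˣ)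
    rw [← Units.val_pow_eq_pow_val, ← pow_mul, mul_comm, hj, Units.val_mk0]
  have h1 : Fintype.card F - 1 ∣ j * k := by
    rw [← ho, orderOf_dvd_iff_pow_eq_one, pow_mul, hj]
    ext; simpa using hk
  exact (Nat.Coprime.pow_left _ ((Nat.Prime.coprime_iff_not_dvd hr.out).2 hrj)).dvd_of_dvd_mul_left
    (pow_padicValNat_dvd.trans h1)

theorem exists_not_pow (h : r ∣ Fintype.card F - 1) :
    ∃ w : F, (∀ b : F, b ^ r ≠ w) ∧ w ^ r ^ padicValNat r (Fintype.card F - 1) = 1 := by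
  classical
  obtain ⟨g, hg⟩ := IsCyclic.exists_monoid_generator (α := Fˣ)
  have ho : orderOf g = Fintype.card F - 1 := by
    rw [orderOf_eq_card_of_forall_mem_powers hg, Nat.card_eq_fintype_card, Fintype.card_units]
  have hpos : Fintype.card F - 1 ≠ 0 := by have := Fintype.one_lt_card (α := F); omega
  obtain ⟨l, hl⟩ := pow_padicValNat_dvd (p := r) (n := Fintype.card F - 1)
  have hrl : ¬ r ∣ l := by
    rintro ⟨l', rfl⟩
    apply pow_succ_padicValNat_not_dvd (p := r) hpos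
    exact ⟨l', by rw [pow_succ, mul_assoc]; exact hl⟩
  refine ⟨(g ^ l : Fˣ), fun b hb => ?_, ?_⟩
  · have hb0 : b ≠ 0 := by
      rintro rfl
      rw [zero_pow hr.out.ne_zero] at hb
      exact (g ^ l).ne_zero hb.symm
    obtain ⟨j, hj⟩ := hg (Units.mk0 b hb0)
    dsimp only at hj
    have h1 : g ^ (j * r) = g ^ l := by
      rw [pow_mul, hj]; ext; simpa using hb
    rw [pow_eq_pow_iff_modEq, ho] at h1
    have h2 := (h1.of_dvd h).symm
    exact hrl ((Nat.modEq_zero_iff_dvd).1 (h2.trans (Nat.modEq_zero_iff_dvd.2 (Dvd.intro_left _ rfl))))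
  · rw [← Units.val_pow_eq_pow_val, ← pow_mul, mul_comm, ← hl, ← ho, pow_orderOf_eq_one,
      Units.val_one]

theorem dvd_sub_one_of_not_pow {w : F} (hw : ∀ b : F, b ^ r ≠ w) : r ∣ Fintype.card F - 1 := by
  by_contra h
  obtain ⟨b, hb⟩ := exists_pow_eq_of_not_dvd h w
  exact hw b hb

theorem isSquare_neg_one_iff (h : 2 ∣ Fintype.card F - 1) :
    IsSquare (-1 : F) ↔ Fintype.card F % 4 = 1 := by
  rw [FiniteField.isSquare_neg_one_iff]
  have := Fintype.card_pos (α := F)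
  omega

omit [Fintype F] in
theorem not_sq_neg {z : F} (h : IsSquare (-1 : F)) (hz : ∀ b : F, b ^ 2 ≠ z) (b : F) :
    b ^ 2 ≠ -z := by
  obtain ⟨i, hi⟩ := h
  intro hb
  apply hz (i * b)
  rw [mul_pow, hb, pow_two, ← hi]; ring

theorem lt_val_of_pow_dvd {n k v : ℕ} (hn : n ≠ 0) (h : n = r * k) (hk : r ^ v ∣ k) :
    v < padicValNat r n := by
  have : r ^ (v + 1) ∣ n := by rw [h, pow_succ']; exact Nat.mul_dvd_mul_left _ hk
  exact (padicValNat_dvd_iff_le hn).1 this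

theorem exists_eq_mul_of_lt_val {n v : ℕ} (h : v < padicValNat r n) :
    ∃ k, n = r * k ∧ r ^ v ∣ k := by
  obtain ⟨l, hl⟩ : r ^ (v + 1) ∣ n := (pow_dvd_pow r h).trans pow_padicValNat_dvd
  exact ⟨r ^ v * l, by rw [hl]; ring, Dvd.intro _ rfl⟩

/-- The condition for the absence of non-split elements of order `r` in `PSL_n(q)`. -/
def NoNS (r n q : ℕ) : Prop :=
  padicValNat r n ≤ padicValNat r (q - 1) ∧ (r = 2 → Even n → q % 4 = 1)

theorem not_noNS_iff (h : r ∣ Fintype.card F - 1) {n : ℕ} (hn : n ≠ 0) :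
    ¬ NoNS r n (Fintype.card F) ↔
      ∃ (z : F) (k : ℕ), (∀ b : F, b ^ r ≠ z) ∧ n = r * k ∧ ((-1) ^ (r + 1) * z) ^ k = 1 := by
  constructor
  · intro H
    rw [NoNS, not_and_or] at H
    rcases H with H | H
    · obtain ⟨k, hk, hv⟩ := exists_eq_mul_of_lt_val (not_le.1 H)
      obtain ⟨w, hw, hw'⟩ := exists_not_pow h
      refine ⟨w, k, hw, hk, ?_⟩
      obtain ⟨l, rfl⟩ := hv
      rw [mul_pow, pow_mul w, hw', one_pow, mul_one, ← pow_mul]
      apply Even.neg_one_pow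
      rcases hr.out.eq_two_or_odd' with rfl | ho
      · have hpos : Fintype.card F - 1 ≠ 0 := by have := Fintype.one_lt_card (α := F); omega
        have := one_le_padicValNat_of_dvd hpos h
        exact ((Nat.even_pow.2 ⟨even_two, by omega⟩).mul_right l).mul_left _
      · exact ho.add_one.mul_right _
    · push Not at H
      obtain ⟨rfl, ⟨k, hk⟩, h4⟩ := H
      refine ⟨-1, k, fun b hb => h4 ((isSquare_neg_one_iff h).1 ⟨b, by rw [← hb, pow_two]⟩),
        by omega, by norm_num⟩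
  · rintro ⟨z, k, hz, hk, hd⟩ ⟨h1, h2⟩
    apply absurd h1 (not_le.2 (lt_val_of_pow_dvd hn hk ?_))
    rcases hr.out.eq_two_or_odd' with rfl | ho
    · have h3 := (isSquare_neg_one_iff h).2 (h2 rfl ⟨k, by omega⟩)
      refine pow_val_dvd_of_not_pow (not_sq_neg h3 hz) ?_
      rw [← hd]; norm_num
    · rw [ho.add_one.neg_one_pow, one_mul] at hd
      exact pow_val_dvd_of_not_pow hz hd

end Powers

section PE

variable {F : Type*} [Field F] {V : Type*} [AddCommGroup V] [Module F V]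

/-- `T` has order `r` modulo scalars. -/
def IsPE (r : ℕ) (T : End F V) : Prop := (∃ z : F, T ^ r = z • 1) ∧ ∀ c : F, T ≠ c • 1

theorem IsPE.smul {r : ℕ} {T : End F V} (h : IsPE r T) {c : F} (hc : c ≠ 0) : IsPE r (c • T) := by
  obtain ⟨⟨z, hz⟩, h2⟩ := h
  refine ⟨⟨c ^ r * z, by rw [_root_.smul_pow, hz, smul_smul]⟩, fun d hd => h2 (c⁻¹ * d) ?_⟩
  rw [mul_smul, ← hd, smul_smul, inv_mul_cancel₀ hc, one_smul]

theorem toLin'_pow_eq_smul_iff {ι : Type*} [Fintype ι] [DecidableEq ι] (A : Matrix ι ι F) (r : ℕ)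
    (c : F) : Matrix.toLin' A ^ r = c • 1 ↔ A ^ r = c • 1 := by
  rw [← Matrix.toLin'.injective.eq_iff, Matrix.toLin'_pow, map_smul, Matrix.toLin'_one]
  rfl

theorem isPE_toLin'_iff {ι : Type*} [Fintype ι] [DecidableEq ι] (A : Matrix ι ι F) (r : ℕ) :
    IsPE r (Matrix.toLin' A) ↔ (∃ z : F, A ^ r = z • 1) ∧ ∀ c : F, A ≠ c • 1 := by
  unfold IsPE
  simp only [toLin'_pow_eq_smul_iff]
  refine and_congr Iff.rfl (forall_congr' fun c => not_congr ?_)
  simpa using toLin'_pow_eq_smul_iff A 1 c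

theorem forall_SL_iff {ι : Type*} [Fintype ι] [DecidableEq ι] (r : ℕ)
    (Φ : End F (ι → F) → Prop) :
    (∀ x : Matrix.SpecialLinearGroup ι F,
      (∃ c : F, ((x ^ r : Matrix.SpecialLinearGroup ι F) : Matrix ι ι F) = c • 1) →
      (∀ c : F, (x : Matrix ι ι F) ≠ c • 1) → Φ (Matrix.toLin' (x : Matrix ι ι F))) ↔
    ∀ T : End F (ι → F), LinearMap.det T = 1 → IsPE r T → Φ T := by
  constructor
  · intro h T hd hT
    obtain ⟨A, rfl⟩ := Matrix.toLin'.surjective T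
    rw [LinearMap.det_toLin'] at hd
    rw [isPE_toLin'_iff] at hT
    exact h ⟨A, hd⟩ hT.1 hT.2
  · intro h x h1 h2
    exact h _ (by rw [LinearMap.det_toLin', x.2]) ((isPE_toLin'_iff _ r).2 ⟨h1, h2⟩)

variable [FiniteDimensional F V]

theorem ne_zero_of_pow_eq_smul {T : End F V} (hd : LinearMap.det T ≠ 0) (hV : finrank F V ≠ 0)
    {r : ℕ} {z : F} (h : T ^ r = z • 1) : z ≠ 0 := by
  rintro rfl
  have := congrArg LinearMap.det h
  rw [map_pow, LinearMap.det_smul, zero_pow hV, zero_mul] at this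
  exact pow_ne_zero _ hd this

theorem IsPE.finrank_ne_zero {r : ℕ} {T : End F V} (h : IsPE r T) : finrank F V ≠ 0 := by
  intro h0
  have := finrank_zero_iff.1 h0
  exact h.2 0 (Subsingleton.elim _ _)

theorem exists_ed_eq' {s : Multiset (F[X] × ℕ)} (hs : Valid s) (h : finrank F V = mdeg s) :
    ∃ T : End F V, ed T = s := exists_ed_eq hs h

variable [Fintype F] {p r : ℕ} [hp : Fact p.Prime] [CharP F p] [hr : Fact r.Prime]

theorem IsPE.split_or {T : End F V} (h : IsPE r T) (hd : LinearMap.det T ≠ 0) :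
    (∃ b : F, b ≠ 0 ∧ (b • T) ^ r = 1) ∨
      ∃ z : F, T ^ r = z • 1 ∧ ∀ b : F, b ^ r ≠ z := by
  obtain ⟨z, hz⟩ := h.1
  by_cases hb : ∃ b : F, b ^ r = z
  · obtain ⟨b, rfl⟩ := hb
    have hb0 : b ≠ 0 := by
      rintro rfl
      exact ne_zero_of_pow_eq_smul hd h.finrank_ne_zero hz (zero_pow hr.out.ne_zero)
    exact Or.inl ⟨b⁻¹, inv_ne_zero hb0, smul_pow_eq_one hb0 hz⟩
  · push Not at hb
    exact Or.inr ⟨z, hz, hb⟩

theorem IsPE.split {T : End F V} (h : IsPE r T) (hd : LinearMap.det T ≠ 0)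
    (hq : ¬ r ∣ Fintype.card F - 1) : ∃ b : F, b ≠ 0 ∧ (b • T) ^ r = 1 :=
  (h.split_or hd).resolve_right fun ⟨_, _, hz⟩ => hq (dvd_sub_one_of_not_pow hz)

omit [Fintype F] in
theorem exists_ne_one_of_unEd {T : End F V} {μ : Multiset ℕ} (h : ed T = unEd μ)
    (hT : T ≠ (1 : F) • 1) : ∃ a ∈ μ, a ≠ 1 := by
  by_contra H
  push Not at H
  apply hT
  rw [← pow_one T, pow_eq_smul_iff_ed, h]
  intro x hx
  obtain ⟨a, ha, rfl⟩ := Multiset.mem_map.1 hx
  simp [H a ha]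

omit [Fintype F] in
theorem isPE_of_unEd {T : End F V} {μ : Multiset ℕ} (h : ed T = unEd μ) (h1 : ∀ a ∈ μ, a ≤ p)
    (h2 : ∃ a ∈ μ, a ≠ 1) : T ^ p = 1 ∧ IsPE p T := by
  have h3 : T ^ p = 1 := pow_eq_one_iff_ed.2 (h ▸ dvd_of_mem_unEd h1)
  obtain ⟨a, ha, ha1⟩ := h2
  refine ⟨h3, ⟨1, by rw [h3, one_smul]⟩, ne_smul_of_mem_ed (x := (X - 1, a)) ?_ ?_⟩
  · rw [h]; exact Multiset.mem_map_of_mem _ ha
  · simpa [natDegree_X_sub_one] using ha1

omit [Fintype F] in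
theorem ne_zero_of_ssEd {T : End F V} {e : ℕ} {t : Multiset F[X]} (h : ed T = ssEd e t)
    (hT : T ≠ (1 : F) • 1) : t ≠ 0 := by
  rintro rfl
  apply hT
  rw [← pow_one T, pow_eq_smul_iff_ed, h]
  intro x hx
  simp only [ssEd, Multiset.map_zero, add_zero] at hx
  simp [Multiset.eq_of_mem_replicate hx]

theorem isPE_of_ssEd (hrp : r ≠ p) {T : End F V} {e : ℕ} {t : Multiset F[X]}
    (h : ed T = ssEd e t) (h1 : ∀ f ∈ t, f ∈ cyc F r) (h2 : t ≠ 0)
    (h3 : orderOf (Fintype.card F : ZMod r) ≠ 1 ∨ e ≠ 0) : T ^ r = 1 ∧ IsPE r T := by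
  have h4 : T ^ r = 1 := pow_eq_one_iff_ed.2 (h ▸ dvd_of_mem_ssEd e h1)
  obtain ⟨f, hf⟩ := Multiset.exists_mem_of_ne_zero h2
  have h5 : (f, 1) ∈ ed T := by
    rw [h]; exact Multiset.mem_add.2 (Or.inr (Multiset.mem_map_of_mem _ hf))
  refine ⟨h4, ⟨1, by rw [h4, one_smul]⟩, ?_⟩
  rcases h3 with h3 | h3
  · exact ne_smul_of_mem_ed h5 (by simpa [natDegree_of_mem_cyc hrp (h1 f hf)] using h3)
  · refine ne_smul_of_mem_ed_two h5 (y := (X - 1, 1)) ?_
      fun h => ne_of_mem_cyc hrp (h1 f hf) (congrArg Prod.fst h)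
    rw [h]; exact Multiset.mem_add.2 (Or.inl (Multiset.mem_replicate.2 ⟨h3, rfl⟩))

omit [Fintype F] in
theorem isPE_of_nonsplit {T : End F V} {z : F} {k : ℕ} (hk : k ≠ 0)
    (h : ed T = Multiset.replicate k (X ^ r - C z, 1)) : T ^ r = z • 1 ∧ IsPE r T := by
  have h4 : T ^ r = z • 1 := pow_eq_smul_iff_ed.2 fun x hx => by
    rw [h] at hx
    simp [Multiset.eq_of_mem_replicate hx]
  refine ⟨h4, ⟨z, h4⟩, ne_smul_of_mem_ed (x := (X ^ r - C z, 1)) ?_ ?_⟩
  · rw [h]; exact Multiset.mem_replicate.2 ⟨hk, rfl⟩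
  · simpa [natDegree_X_pow_sub_C] using hr.out.one_lt.ne'

/-- Unipotent case. -/
theorem forall_det_char (Φ : End F V → Prop) (Ψ : Multiset ℕ → Prop)
    (hs : ∀ T (c : F), c ≠ 0 → Φ (c • T) → Φ T)
    (hΦ : ∀ T μ, T ^ p = 1 → ed T = unEd μ → (Φ T ↔ Ψ μ)) :
    (∀ T : End F V, LinearMap.det T = 1 → IsPE p T → Φ T) ↔
      ∀ μ : Multiset ℕ, (∀ a ∈ μ, 0 < a ∧ a ≤ p) → μ.sum = finrank F V → (∃ a ∈ μ, a ≠ 1) →
        Ψ μ := by
  constructor
  · intro h μ h1 h2 h3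
    obtain ⟨T, hT⟩ := exists_ed_eq' (F := F) (V := V) (valid_unEd fun a ha => (h1 a ha).1)
      (by rw [mdeg_unEd, h2])
    obtain ⟨h4, h5⟩ := isPE_of_unEd hT (fun a ha => (h1 a ha).2) h3
    exact (hΦ T μ h4 hT).1 (h T (det_eq_one_of_pow_eq_one char_not_dvd_sub_one h4) h5)
  · intro h T hd hT
    obtain ⟨b, hb, h1⟩ := hT.split (by rw [hd]; exact one_ne_zero) char_not_dvd_sub_one
    obtain ⟨μ, h2, h3⟩ := ed_unEd h1
    refine hs T b hb ((hΦ _ μ h1 h3).2 (h μ h2 ?_ (exists_ne_one_of_unEd h3 ((hT.smul hb).2 1))))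
    rw [finrank_eq_mdeg_ed (b • T), h3, mdeg_unEd]

/-- Semisimple case, `r ∤ q - 1`. -/
theorem forall_det_ss (hrp : r ≠ p) (hi : orderOf (Fintype.card F : ZMod r) ≠ 1)
    (Φ : End F V → Prop) (Ψ : ℕ → Multiset F[X] → Prop)
    (hs : ∀ T (c : F), c ≠ 0 → Φ (c • T) → Φ T)
    (hΦ : ∀ T e t, T ^ r = 1 → (∀ f ∈ t, f ∈ cyc F r) → ed T = ssEd e t → (Φ T ↔ Ψ e t)) :
    (∀ T : End F V, LinearMap.det T = 1 → IsPE r T → Φ T) ↔
      ∀ e t, (∀ f ∈ t, f ∈ cyc F r) → t ≠ 0 →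
        e + orderOf (Fintype.card F : ZMod r) * Multiset.card t = finrank F V → Ψ e t := by
  have hq : ¬ r ∣ Fintype.card F - 1 := by rwa [← orderOf_eq_one_iff_dvd Fintype.card_pos]
  constructor
  · intro h e t h1 h2 h3
    obtain ⟨T, hT⟩ := exists_ed_eq' (F := F) (V := V) (valid_ssEd e h1)
      (by rw [mdeg_ssEd hrp e h1, h3])
    obtain ⟨h4, h5⟩ := isPE_of_ssEd hrp hT h1 h2 (Or.inl hi)
    exact (hΦ T e t h4 h1 hT).1 (h T (det_eq_one_of_pow_eq_one hq h4) h5)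
  · intro h T hd hT
    obtain ⟨b, hb, h1⟩ := hT.split (by rw [hd]; exact one_ne_zero) hq
    obtain ⟨e, t, h2, h3⟩ := ed_ssEd hrp h1
    refine hs T b hb ((hΦ _ e t h1 h2 h3).2
      (h e t h2 (ne_zero_of_ssEd h3 ((hT.smul hb).2 1)) ?_))
    rw [finrank_eq_mdeg_ed (b • T), h3, mdeg_ssEd hrp e h2]

theorem exists_nonsplit (hq : r ∣ Fintype.card F - 1) (hV : finrank F V ≠ 0)
    (h : ¬ NoNS r (finrank F V) (Fintype.card F)) :
    ∃ (T : End F V) (z : F), LinearMap.det T = 1 ∧ IsPE r T ∧ T ^ r = z • 1 ∧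
      ∀ b : F, b ^ r ≠ z := by
  obtain ⟨z, k, hz, hk, hd⟩ := (not_noNS_iff hq hV).1 h
  have hv : Valid (Multiset.replicate k ((X ^ r - C z : F[X]), 1)) := fun x hx => by
    rw [Multiset.eq_of_mem_replicate hx]
    exact ⟨X_pow_sub_C_irreducible_of_prime hr.out hz, monic_X_pow_sub_C z hr.out.ne_zero, one_pos⟩
  obtain ⟨T, hT⟩ := exists_ed_eq' (F := F) (V := V) hv
    (by rw [mdeg_replicate, natDegree_X_pow_sub_C, hk]; ring)
  obtain ⟨h1, h2⟩ := isPE_of_nonsplit (by rintro rfl; exact hV hk) hT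
  exact ⟨T, z, by rw [det_of_ed_nonsplit hT, hd], h2, h1, hz⟩

theorem not_noNS_of_nonsplit {T : End F V} {z : F} (hV : finrank F V ≠ 0)
    (hd : LinearMap.det T = 1) (hT : T ^ r = z • 1) (hz : ∀ b : F, b ^ r ≠ z) :
    ¬ NoNS r (finrank F V) (Fintype.card F) := by
  obtain ⟨k, hk⟩ := edOn_nonsplit hT hz ⊤
  rw [edOn_top] at hk
  refine (not_noNS_iff (dvd_sub_one_of_not_pow hz) hV).2 ⟨z, k, hz, ?_, ?_⟩
  · rw [finrank_eq_mdeg_ed T, hk, mdeg_replicate, natDegree_X_pow_sub_C]; ring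
  · rw [← det_of_ed_nonsplit hk, hd]

/-- Semisimple case, `r ∣ q - 1`, for a property shared by all diagonalisable elements. -/
theorem forall_det_one (hq : r ∣ Fintype.card F - 1) (hV : finrank F V ≠ 0)
    (Φ : End F V → Prop) (Ψ : Prop) (hs : ∀ T (c : F), c ≠ 0 → Φ (c • T) → Φ T)
    (h1 : ∀ T, T ^ r = 1 → Φ T)
    (hΦ : ∀ T (z : F), T ^ r = z • 1 → (∀ b : F, b ^ r ≠ z) → (Φ T ↔ Ψ)) :
    (∀ T : End F V, LinearMap.det T = 1 → IsPE r T → Φ T) ↔
      (Ψ ∨ NoNS r (finrank F V) (Fintype.card F)) := by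
  constructor
  · intro h
    by_contra H
    rw [not_or] at H
    obtain ⟨T, z, h2, h3, h4, h5⟩ := exists_nonsplit hq hV H.2
    exact H.1 ((hΦ T z h4 h5).1 (h T h2 h3))
  · intro h T hd hT
    rcases hT.split_or (by rw [hd]; exact one_ne_zero) with ⟨b, hb, h2⟩ | ⟨z, h2, h3⟩
    · exact hs T b hb (h1 _ h2)
    · exact (hΦ T z h2 h3).2 (h.resolve_right (not_noNS_of_nonsplit hV hd h2 h3))

theorem dims_ed_of_dvd (hrp : r ≠ p) (hq : r ∣ Fintype.card F - 1) {T : End F V}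
    (hT : T ^ r = 1) : dims (ed T) = Multiset.replicate (finrank F V) 1 := by
  obtain ⟨e, t, h1, h2⟩ := ed_ssEd hrp hT
  rw [finrank_eq_mdeg_ed T, h2, dims_ssEd hrp e h1, mdeg_ssEd hrp e h1,
    (orderOf_eq_one_iff_dvd Fintype.card_pos).2 hq, one_mul, Multiset.replicate_add]

omit [Fintype F] in
theorem dims_ed_nonsplit {T : End F V} {z : F} (hT : T ^ r = z • 1) (hz : ∀ b : F, b ^ r ≠ z) :
    ∃ k, finrank F V = r * k ∧ dims (ed T) = Multiset.replicate k r := by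
  obtain ⟨k, hk⟩ := edOn_nonsplit hT hz ⊤
  rw [edOn_top] at hk
  refine ⟨k, ?_, ?_⟩
  · rw [finrank_eq_mdeg_ed T, hk, mdeg_replicate, natDegree_X_pow_sub_C]; ring
  · rw [hk, dims, Multiset.map_replicate, natDegree_X_pow_sub_C, mul_one]

omit [Fintype F] in
theorem squarefree_nonsplit {z : F} (hz : ∀ b : F, b ^ r ≠ z) :
    Squarefree (X ^ r - C z : F[X]) := (X_pow_sub_C_irreducible_of_prime hr.out hz).squarefree

end PE

section Zero

variable (F : Type*) [Field F] (V : Type*) [AddCommGroup V] [Module F V]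

/-- The zero form: its isometry group is the whole general linear group. -/
def zeroPQ : PQ (RingHom.id F) V := ofAlt (0 : LinearMap.BilinForm F V) fun _ => rfl

variable {F V}

theorem zero_isIso (g : V → V) : (zeroPQ F V).IsIso g := ⟨fun _ _ => rfl, fun _ => trivial⟩

theorem zero_perp (U : Submodule F V) : (zeroPQ F V).perp U = ⊤ :=
  eq_top_iff.2 fun _ _ _ _ => rfl

theorem zero_ts (U : Submodule F V) : (zeroPQ F V).TS U :=
  ⟨fun _ _ => trivial, by rw [zero_perp]; exact le_top⟩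

theorem exists_equiv_map_eq [FiniteDimensional F V] {U W : Submodule F V}
    (h : finrank F U = finrank F W) : ∃ g : V ≃ₗ[F] V, U.map g.toLinearMap = W := by
  obtain ⟨U', hU⟩ := U.exists_isCompl
  obtain ⟨W', hW⟩ := W.exists_isCompl
  have h' : finrank F U' = finrank F W' := by
    have h1 := Submodule.finrank_add_eq_of_isCompl hU
    have h2 := Submodule.finrank_add_eq_of_isCompl hW
    omega
  let e := (LinearEquiv.ofFinrankEq U W h)
  refine ⟨(U.prodEquivOfIsCompl U' hU).symm.trans ((e.prodCongr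
    (LinearEquiv.ofFinrankEq U' W' h')).trans (W.prodEquivOfIsCompl W' hW)), ?_⟩
  apply Submodule.eq_of_le_of_finrank_eq
  · rintro _ ⟨u, hu, rfl⟩
    have : (U.prodEquivOfIsCompl U' hU).symm u = (⟨u, hu⟩, 0) :=
      Submodule.prodEquivOfIsCompl_symm_apply_left U U' hU ⟨u, hu⟩
    simp only [LinearEquiv.coe_coe, LinearEquiv.trans_apply, this]
    simp
  · rw [LinearEquiv.finrank_map_eq, h]

end Zero

end CfsgLib.Elusive
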